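import Cfsg.Agent.S0205
import Cfsg.Agent.S0886
import Cfsg.Agent.H681.SimpleChar
import Cfsg.Agent.H691.Defs
import Cfsg.Agent.SmallSimple.DegreeData

/-!
# S4855: an almost simple group `A` with `|A : S| ≤ 2` has a character of degree at least 3, irreducible on `S` (helper31)
-/

set_option autoImplicit false

namespace Cfsg.Agent.H31.S4855

open Cfsg Cfsg.Agent.H691 Cfsg.Agent.Characters

universe u

theorem two_dvd_card {S : Type u} [Group S] [Finite S] [IsSimpleGroup S] (hna : ¬ ∀ a b : S, a * b = b * a) :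
    2 ∣ Nat.card S := by
  by_contra h
  have h1 : Odd (Nat.card S) := by
    rw [← Nat.not_even_iff_odd, even_iff_two_dvd]
    exact h
  have h2 : Group.IsSolvable S := Cfsg.Agent.S0205.result h1
  exact hna ((IsSimpleGroup.comm_iff_isSolvable (G := S)).2 h2)

theorem class_apply {S : Type u} [Group S] {χ : S → ℂ} (hχ : IsIrrCharacter S χ) (x y : S) :
    χ (x * y * x⁻¹) = χ y := by
  obtain ⟨n, ρ, -, rfl⟩ := hχ
  exact Representation.char_conj ρ y x

theorem three_le {S : Type u} [Group S] [Finite S] [IsSimpleGroup S] (hna : ¬ ∀ a b : S, a * b = b * a) {χ : S → ℂ}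
    (hχ : IsIrrCharacter S χ) (h1 : χ ≠ 1) : ∃ n : ℕ, χ 1 = n ∧ 3 ≤ n := by
  obtain ⟨n, hn, hn'⟩ := Core.isIrr_apply_one hχ
  refine ⟨n, hn', ?_⟩
  by_contra h
  have h2 : n = 1 ∨ n = 2 := by omega
  rcases h2 with rfl | rfl
  · exact h1 (H681.SimpleChar.eq_one_of_degree_one hna hχ (by rw [hn', Nat.cast_one]))
  · exact H681.SimpleChar.degree_ne_two hna (H681.DegBasic.mem_charDegrees.2 ⟨χ, hχ, by rw [hn']⟩)

theorem exists_fixed {A : Type u} [Group A] [Finite A] {S : Subgroup A} [S.Normal] [IsSimpleGroup S]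
    (hna : ¬ ∀ a b : S, a * b = b * a) {a : A} (ha : a * a ∈ S) :
    ∃ χ : S → ℂ, IsIrrCharacter S χ ∧ χ ≠ 1 ∧ ∀ n : S, χ (MulAut.conjNormal a n) = χ n := by
  classical
  have := Core.finite_irr (G := S)
  have := Fintype.ofFinite (IrrCharacter S)
  have h2 := two_dvd_card hna
  let τ : IrrCharacter S → IrrCharacter S := fun χ =>
    ⟨(χ : S → ℂ) ∘ (MulAut.conjNormal a : MulAut S), Core.isIrr_comp (MulAut.conjNormal a : MulAut S).toMonoidHom
      (MulAut.conjNormal a : MulAut S).surjective χ.2⟩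
  have hτ : ∀ χ, τ (τ χ) = χ := by
    intro χ
    apply Subtype.ext
    funext n
    show (χ : S → ℂ) (MulAut.conjNormal a (MulAut.conjNormal a n)) = (χ : S → ℂ) n
    rw [← class_apply χ.2 ⟨a * a, ha⟩ n]
    refine congrArg (χ : S → ℂ) (Subtype.ext ?_)
    simp only [MulAut.conjNormal_apply, Subgroup.coe_mul, Subgroup.coe_inv]
    group
  have hτ1 : ∀ χ, (τ χ : S → ℂ) 1 = (χ : S → ℂ) 1 := by
    intro χ
    show (χ : S → ℂ) (MulAut.conjNormal a 1) = _
    rw [map_one]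
  let o : IrrCharacter S := ⟨1, Core.isIrr_one⟩
  have hτo : τ o = o := rfl
  by_contra hcon
  push Not at hcon
  have hne : ∀ χ : IrrCharacter S, χ ≠ o → τ χ ≠ χ := by
    intro χ hχ h
    obtain ⟨n, hn⟩ := hcon χ χ.2 (fun h1 => hχ (Subtype.ext h1))
    exact hn (congrFun (congrArg Subtype.val h) n)
  have hsum := Cfsg.Agent.SmallSimple.DegreeData.sum_sq (G := S)
  have hz : ∑ χ ∈ Finset.univ.erase o, ((charDegree (χ : S → ℂ) : ZMod 2)) ^ 2 = 0 := by
    refine Finset.sum_involution (fun χ _ => τ χ) ?_ ?_ ?_ ?_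
    · intro χ _
      have h3 : charDegree (τ χ : S → ℂ) = charDegree (χ : S → ℂ) := by
        unfold charDegree
        rw [hτ1]
      rw [h3]
      exact CharTwo.add_self_eq_zero _
    · intro χ hχ _
      exact hne χ (Finset.ne_of_mem_erase hχ)
    · intro χ hχ
      refine Finset.mem_erase.2 ⟨fun h3 => Finset.ne_of_mem_erase hχ ?_, Finset.mem_univ _⟩
      rw [← hτ χ, h3, hτo]
    · intro χ _
      exact hτ χ
  have h4 : ((∑ χ : IrrCharacter S, (charDegree (χ : S → ℂ)) ^ 2 : ℕ) : ZMod 2) = 0 := by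
    rw [hsum]
    exact (ZMod.natCast_eq_zero_iff _ _).2 h2
  rw [Nat.cast_sum, ← Finset.add_sum_erase _ _ (Finset.mem_univ o)] at h4
  have h5 : charDegree (o : S → ℂ) = 1 := by
    show ⌊((1 : S → ℂ) 1).re⌋₊ = 1
    simp
  simp only [Nat.cast_pow] at h4
  rw [hz, h5, add_zero] at h4
  simp at h4

theorem ext_of_index_two {A : Type*} [Group A] [Finite A] {S : Subgroup A} (h : AS A S) (h2 : S.index ≤ 2) :
    ∃ χ : A → ℂ, IsIrrCharacter A χ ∧ IsIrrCharacter S (fun s : S => χ s) ∧ ∃ n : ℕ, χ 1 = n ∧ 3 ≤ n := by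
  have hn := h.normal
  have hs := h.simple
  have hna : ¬ ∀ a b : S, a * b = b * a := fun H => h.nonab ⟨⟨H⟩⟩
  have hpos : S.index ≠ 0 := Subgroup.index_ne_zero_of_finite
  obtain ⟨a, ha, haS, hcyc⟩ : ∃ a : A, a * a ∈ S ∧ (∀ g : A, g ∈ S ∨ a⁻¹ * g ∈ S) ∧ IsCyclic (A ⧸ S) := by
    rcases (show S.index = 1 ∨ S.index = 2 by omega) with h3 | h3
    · rw [Subgroup.index_eq_one] at h3
      refine ⟨1, h3 ▸ Subgroup.mem_top _, fun g => Or.inl (h3 ▸ Subgroup.mem_top _), ?_⟩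
      have : Subsingleton (A ⧸ S) := by
        rw [h3]
        exact QuotientGroup.subsingleton_quotient_top
      exact isCyclic_of_subsingleton
    · obtain ⟨a, ha⟩ := Subgroup.index_eq_two_iff'.1 h3
      have ha1 : a ∉ S := by
        rcases ha 1 with ⟨-, h4⟩ | ⟨-, h4⟩
        · exact absurd S.one_mem h4
        · rwa [mul_one] at h4
      refine ⟨a, ?_, fun g => ?_, ?_⟩
      · rcases ha a with ⟨h4, -⟩ | ⟨h4, -⟩
        · exact h4
        · exact absurd h4 ha1
      · rcases ha (a⁻¹ * g) with ⟨h4, -⟩ | ⟨h4, -⟩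
        · left
          rwa [mul_inv_cancel_left] at h4
        · exact Or.inr h4
      · have : Fact (Nat.Prime 2) := ⟨Nat.prime_two⟩
        exact isCyclic_of_prime_card (p := 2) h3
  obtain ⟨θ, hθ, hθ1, hfix⟩ := exists_fixed hna ha
  have hinv : ∀ (g : A) (n : S), θ ⟨g * n * g⁻¹, hn.conj_mem (n : A) n.2 g⟩ = θ n := by
    intro g n
    rcases haS g with hg | hg
    · rw [← class_apply hθ ⟨g, hg⟩ n]
      rfl
    · rw [← hfix n, ← class_apply hθ (MulAut.conjNormal a ⟨_, hg⟩) (MulAut.conjNormal a n)]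
      refine congrArg θ (Subtype.ext ?_)
      simp only [MulAut.conjNormal_apply, Subgroup.coe_mul, Subgroup.coe_inv]
      group
  obtain ⟨χ, hχ, hχθ⟩ := Cfsg.Agent.S0886.result S hcyc θ hθ hinv
  obtain ⟨n, hn1, hn3⟩ := three_le hna hθ hθ1
  refine ⟨χ, hχ, ?_, n, ?_, hn3⟩
  · convert hθ using 1
    funext s
    exact hχθ s
  · rw [← hn1, ← hχθ 1, Subgroup.coe_one]

end Cfsg.Agent.H31.S4855
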